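/-
Singular subgroups for a large extraspecial 2-subgroup `O₂(C(z))`.
-/
import Cfsg.Agent.Fi.Pair

set_option autoImplicit false

namespace CA.Fi

open Cfsg Subgroup CA.FG.Comp

universe u v

variable {G : Type u} [Group G]

theorem Op_cent_conj (g z : G) : (Op 2 (centralizer ({z} : Set G))).map (MulAut.conj g).toMonoidHom =
    Op 2 (centralizer ({g * z * g⁻¹} : Set G)) := by
  rw [← Op_conj, map_conj_cent]

theorem LE.conj_Op {z : G} (h : LE (Op 2 (centralizer ({z} : Set G))) z) (g : G) :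
    LE (Op 2 (centralizer ({g * z * g⁻¹} : Set G))) (g * z * g⁻¹) := by
  rw [← Op_cent_conj]; exact h.conj g

/-- a singular subgroup. -/
structure Sing (z : G) (U : Subgroup G) : Prop where
  le : LE (Op 2 (centralizer ({z} : Set G))) z
  sq : ∀ u ∈ U, u * u = 1
  conj : ∀ u ∈ U, u ≠ 1 → ∃ g : G, g * z * g⁻¹ = u
  orth : ∀ u ∈ U, ∀ v ∈ U, u ≠ 1 → v ≠ 1 → v ∈ Op 2 (centralizer ({u} : Set G))

namespace Sing

variable {z : G} {U : Subgroup G}

theorem le' (h : Sing z U) {u : G} (hu : u ∈ U) (h1 : u ≠ 1) : LE (Op 2 (centralizer ({u} : Set G))) u := by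
  obtain ⟨g, rfl⟩ := h.conj u hu h1
  exact h.le.conj_Op g

theorem le_Q (h : Sing z U) {u : G} (hu : u ∈ U) (h1 : u ≠ 1) : U ≤ Op 2 (centralizer ({u} : Set G)) := by
  intro v hv
  by_cases e : v = 1
  · rw [e]; exact one_mem _
  · exact h.orth u hu v hv h1 e

theorem comm (h : Sing z U) {u v : G} (hu : u ∈ U) (hv : v ∈ U) : Commute u v :=
  commute_of_sq_eq_one (h.sq u hu) (h.sq v hv) (by rw [pow_two]; exact h.sq _ (U.mul_mem hu hv))

theorem exists_conj (h : Sing z U) {u v : G} (hu : u ∈ U) (hv : v ∈ U) (h1 : u ≠ 1) (h2 : v ≠ 1) :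
    ∃ a : G, a * u * a⁻¹ = v := by
  obtain ⟨g, rfl⟩ := h.conj u hu h1
  obtain ⟨k, rfl⟩ := h.conj v hv h2
  exact ⟨k * g⁻¹, by group⟩

theorem pair (h : Sing z U) {u v : G} (hu : u ∈ U) (hv : v ∈ U) (h1 : u ≠ 1) (h2 : v ≠ 1) (hne : u ≠ v) :
    Pair (Op 2 (centralizer ({u} : Set G))) (Op 2 (centralizer ({v} : Set G))) u v := by
  obtain ⟨a, ha⟩ := h.exists_conj hu hv h1 h2
  exact ⟨h.le' hu h1, h.le' hv h2, h.le_Q hu h1 hv, h.le_Q hv h2 hu, hne, a, ha, by rw [Op_cent_conj, ha]⟩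

theorem Q_le_norm (h : Sing z U) {u : G} (hu : u ∈ U) (h1 : u ≠ 1) :
    Op 2 (centralizer ({u} : Set G)) ≤ normalizer (U : Set G) := by
  rw [le_normalizer_iff]
  intro q hq v hv
  rcases (h.le' hu h1).conj_or hq (h.le_Q hu h1 hv) with e | e <;> rw [e]
  exacts [hv, U.mul_mem hv hu]

theorem mem_mul (h : Sing z U) {u v x : G} (hu : u ∈ U) (hv : v ∈ U) (h1 : u ≠ 1) (h2 : v ≠ 1)
    (h3 : u * v ≠ 1) (hxu : x ∈ Op 2 (centralizer ({u} : Set G))) (hxv : x ∈ Op 2 (centralizer ({v} : Set G))) :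
    x ∈ Op 2 (centralizer ({u * v} : Set G)) := by
  have hne : u ≠ v := fun e => h3 (by rw [← e]; exact h.sq u hu)
  obtain ⟨a, ha⟩ := h.exists_conj hu (U.mul_mem hu hv) h1 h3
  have := (h.pair hu hv h1 h2 hne).mem_third (a := a) (by rw [ha, (h.comm hu hv).eq]) ⟨hxu, hxv⟩
  rwa [Op_cent_conj, ha] at this

end Sing

end CA.Fi
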